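import Cfsg.Agent.T44.Ex.Grp
import Cfsg.Agent.Lib.CoprimeHyperplane

/-!
# S3544, exceptional groups: homomorphisms from `M` to a Weyl group (helper36)

* `five_of_hom` : the square of a prime `≥ 5` divides the order of the image;
* `false_of_eight` : `M / Q` is not a section of `W(E₈)`.
-/

set_option autoImplicit false
set_option linter.unusedSectionVars false

namespace Cfsg.Agent.T44.Ex

open Subgroup Cfsg Cfsg.Agent.T44
open scoped commutatorElement

theorem eq_five {n : ℕ} (hn : n.Prime) (h5 : 5 ≤ n) (h : n ^ 2 ∣ 696729600) : n = 5 := by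
  have h0 : (696729600 : ℕ) ∣ (2 * (3 * (5 * 7))) ^ 14 := by norm_num
  have h4 := hn.dvd_of_dvd_pow (((dvd_pow_self n two_ne_zero).trans h).trans h0)
  simp only [hn.dvd_mul] at h4
  rcases h4 with h1 | h1 | h1 | h1
  · exact absurd (Nat.le_of_dvd (by norm_num) h1) (by omega)
  · exact absurd (Nat.le_of_dvd (by norm_num) h1) (by omega)
  · exact (Nat.prime_dvd_prime_iff_eq hn Nat.prime_five).1 h1
  · rw [(Nat.prime_dvd_prime_iff_eq hn (by norm_num : Nat.Prime 7)).1 h1] at h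
    norm_num at h

theorem two_three {n : ℕ} (hn : n.Prime) (h5 : ¬ 5 ≤ n) : n = 2 ∨ n = 3 := by
  have h1 := hn.two_le
  have h2 : n ≠ 4 := by rintro rfl; exact absurd hn (by decide)
  omega

variable {W : Type*} [Group W] [Finite W]

theorem le_center_of (hW : ∀ (P S : Subgroup W) (s : ℕ), s = 2 ∨ s = 3 → Nat.card P = 25 → IsPGroup s S →
    P ≤ normalizer (S : Set W) → S ≤ center W) {P L : Subgroup W} (hP : Nat.card P = 25)
    (hn : P ≤ normalizer (L : Set W)) (hL : ∀ u : ℕ, u.Prime → u ∣ Nat.card L → u = 2 ∨ u = 3) : L ≤ center W := by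
  by_contra h
  obtain ⟨u, hu, hd⟩ := Nat.exists_prime_and_dvd fun e => h (relIndex_eq_one.1 e)
  have := Fact.mk hu
  have := Fact.mk Nat.prime_five
  obtain ⟨S, hS⟩ := Lib.CoprimeHyperplane.exists_invariant_sylow (p := 5) (IsPGroup.of_card (n := 2) hP) hn
    (fun e => by have := hL 5 Nat.prime_five e; omega) u
  have h1 := hW P _ u (hL u hu (hd.trans (index_dvd_card _))) hP (S.isPGroup'.map _) hS
  exact S.not_dvd_index (hd.trans (index_dvd_of_le fun x hx => h1 ⟨x, hx, rfl⟩))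

variable {G : Type*} [Group G] [Finite G] {T H Q : Subgroup G} {r : ℕ} {Ya Yb : Set G} {da db : ℕ}

theorem five_of_hom (h : Cfg T H Q r Ya Yb da db) (f : (T ⊓ H : Subgroup G) →* W)
    (hf : ∀ n : ℕ, n.Prime → 5 ≤ n → ¬ n ∣ (Q.subgroupOf (T ⊓ H)).relIndex f.ker) :
    ∃ n : ℕ, n.Prime ∧ 5 ≤ n ∧ n ^ 2 ∣ Nat.card f.range := by
  obtain ⟨n, h1, h2, -, h3⟩ := Cl.exists_ell h
  have : (Q.subgroupOf (T ⊓ H)).Normal := normal_subgroupOf_of_le_normalizer h.isO.norm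
  refine ⟨n, h1, h2, ?_⟩
  rw [relIndex, ← relIndex_mul_index (le_sup_right : Q.subgroupOf (T ⊓ H) ≤ f.ker ⊔ Q.subgroupOf (T ⊓ H)),
    relIndex_sup_right] at h3
  rw [← index_ker]
  exact ((((Nat.Prime.coprime_iff_not_dvd h1).2 (hf n h1 h2)).pow_left 2).dvd_of_dvd_mul_left h3).trans
    (index_dvd_of_le le_sup_left)

variable (hW : Nat.card W ∣ 696729600) (hW1 : ∀ (P S : Subgroup W) (s : ℕ), s = 2 ∨ s = 3 → Nat.card P = 25 →
    IsPGroup s S → P ≤ normalizer (S : Set W) → S ≤ center W)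
  (f : (T ⊓ H : Subgroup G) →* W) (hf : ∀ x, f x = 1 → (x : G) ∈ Q)

include hW hf in
theorem idx_dvd : Q.relIndex (T ⊓ H) ∣ 696729600 := by
  refine (index_dvd_of_le (H := f.ker) (K := Q.subgroupOf (T ⊓ H)) hf).trans ?_
  rw [index_ker]
  exact (card_subgroup_dvd_card _).trans hW

include hW hW1 hf

theorem eight_aux (h : Cfg T H Q r Ya Yb da db) (hr : ¬ 5 ≤ r) {z : G} (hz : z ∈ Yb) {t : ℕ} (ht : t.Prime) (h5 : 5 ≤ t)
    (hd : t ∣ (cj z H).relIndex (Lg Q Yb)) : False := by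
  have hpow : ∀ u k : ℕ, u.Prime → 5 ≤ u → u ^ k ∣ Nat.card (T ⊓ H : Subgroup G) → u ^ k ∣ 696729600 :=
    fun u k hu hu5 e => by
    rw [← card_mul_relIndex h.Q_le_M] at e
    exact ((((Nat.Prime.coprime_iff_not_dvd hu).2 (not_dvd_card_of_pg h.prime hu (by omega) h.isO.pg)).pow_left
      k).dvd_of_dvd_mul_left e).trans (idx_dvd hW f hf)
  obtain ⟨y, hy⟩ := h.A.ne
  have hd' := hd.trans (index_dvd_card _)
  have h1 := h.sq_dvd ht hd' hy
  obtain rfl := eq_five ht h5 (hpow t 2 ht h5 (h1.trans (card_dvd_of_le inf_le_left)))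
  have h2 : ∀ u : ℕ, u.Prime → u ∣ Nat.card (Lg Q Ya) → u = 2 ∨ u = 3 := fun u hu e => two_three hu fun hu5 => by
    obtain rfl := eq_five hu hu5 (hpow u 2 hu hu5 ((h.symm.sq_dvd hu e hz).trans (card_dvd_of_le inf_le_left)))
    have h3 := hpow 5 3 hu hu5 (h.symm.cube_dvd hu e hz
      (hd.trans (H408.Core.relIndex_dvd_of_le_normalizer _ h.Lb_le_M h.M_norm_Lb)))
    norm_num at h3
  obtain ⟨P, hP⟩ := exists_syl' ht (T ⊓ H ⊓ cj y H)
  obtain ⟨u, hu, hu'⟩ := h.exists_u ht hd' hy (by omega) hP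
  have hPM : P ≤ T ⊓ H := hP.le.trans inf_le_left
  have := Fact.mk ht
  have := Fact.mk h.prime
  have h3 : Nat.card ((P.subgroupOf (T ⊓ H)).map f) = 25 := by
    have a1 : f.ker ⊓ P.subgroupOf (T ⊓ H) = ⊥ := eq_bot_iff.2 fun x hx => mem_bot.2 (Subtype.ext (mem_bot.1
      ((IsPGroup.disjoint_of_ne r 5 (by omega) _ _ h.isO.pg hP.pg).eq_bot.le ⟨hf x hx.1, hx.2⟩)))
    have a2 : Nat.card ((P.subgroupOf (T ⊓ H)).map f) = Nat.card P := by
      rw [← relIndex_ker, ← inf_relIndex_right, a1, relIndex_bot_left]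
      exact Nat.card_congr (subgroupOfEquivOfLe hPM).toEquiv
    obtain ⟨k, hk⟩ := IsPGroup.iff_card.1 hP.pg
    have a3 := (hP.dvd_card_iff ht).2 h1
    have a4 := (card_subgroup_dvd_card ((P.subgroupOf (T ⊓ H)).map f)).trans hW
    rw [a2, hk] at a4 ⊢
    rw [hk, Nat.pow_dvd_pow_iff_le_right (by norm_num)] at a3
    have a5 : ¬ 3 ≤ k := fun e => by
      have := (pow_dvd_pow 5 e).trans a4
      norm_num at this
    rw [show k = 2 by omega]
    norm_num
  have h4 := le_center_of hW1 (L := ((Lg Q Ya).subgroupOf (T ⊓ H)).map f) h3 (norm_of_conj (by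
    rintro _ ⟨a, -, rfl⟩ _ ⟨x, hx, rfl⟩
    exact ⟨a * x * a⁻¹, conj_mem_of_norm h.M_norm_La a.2 hx, by rw [map_mul, map_mul, map_inv]⟩)) fun v hv e =>
    h2 v hv (by
      rw [← Nat.card_congr (subgroupOfEquivOfLe h.La_le_M).toEquiv]
      exact e.trans (card_map_dvd _ _))
  refine hu' ⟨hPM hu.2, fun x hx => hf ⁅(⟨x, h.La_le_M hx⟩ : (T ⊓ H : Subgroup G)), ⟨u, hPM hu.2⟩⁆ ?_⟩
  rw [map_commutatorElement, commutatorElement_eq_one_iff_mul_comm]
  exact (mem_center_iff.1 (h4 (mem_map_of_mem f (x := ⟨x, h.La_le_M hx⟩) hx)) _).symm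

/-- **`M / Q` is not a section of `W(E₈)`.** -/
theorem false_of_eight (h : Cfg T H Q r Ya Yb da db) : False := by
  have hr : ¬ 5 ≤ r := fun e => by
    have h1 := h.N0.trans (idx_dvd hW f hf)
    rw [eq_five h.prime e ((pow_dvd_pow r (by norm_num)).trans h1)] at h1
    norm_num at h1
  obtain ⟨y, hy⟩ := h.A.ne
  obtain ⟨z, hz⟩ := h.B.ne
  obtain ⟨s, a1, a2, a3, a4, -⟩ := h.exists_prime_a hy
  obtain ⟨t, b1, b2, b3, b4, -⟩ := h.symm.exists_prime_a hz
  by_cases h5 : 5 ≤ t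
  · exact eight_aux hW hW1 f hf h hr hz b1 h5 b4
  · have h1 : s ≠ t := fun e => a1.one_lt.ne' (Nat.eq_one_of_dvd_coprimes h.cop a2 (e ▸ b2))
    have h2 := two_three b1 h5
    have h3 := two_three h.prime hr
    exact eight_aux hW hW1 f hf h.symm hr hy a1 (by_contra fun e => by have := two_three a1 e; omega) a4

end Cfsg.Agent.T44.Ex
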